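import Cfsg.Agent.H602.L5.Irr

/-!
# S5923, E2 and E3 (helper947)

* `exists_J` : the endomorphism `J` with `J² = -1` commuting with `SL₃(5)` and acting as `z0` on the fixed vectors of `VP`;
* `dim_graph` : an involution inducing the inverse transpose has a fixed space of dimension 124.
-/

set_option autoImplicit false
set_option linter.unusedSectionVars false

open Module

namespace Cfsg.Agent.H947.L5

open Cfsg.Agent.H865.L5 Cfsg.Agent.H602.L5

/-! ### Elements of `SL₃(5)` -/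

theorem z0_mem : z0 ∈ P0 := ⟨rfl, rfl⟩

/-- `z0` is central modulo `VP` in the stabilizer of `p₀` -/
theorem conj_z0 {y : SL35} (hy : y ∈ P0) : ∃ a b : ZMod 5, y * z0 * y⁻¹ = z0 * vp a b := by
  obtain ⟨hy1, hy2⟩ := hy
  obtain ⟨hz1, hz2⟩ := P0.inv_mem ⟨hy1, hy2⟩
  set z := y⁻¹ with hz
  have hyz : y.1 * z.1 = 1 := by
    have : y * z = 1 := mul_inv_cancel y
    exact congrArg Subtype.val this
  have h : ∀ i j, y.1 i 0 * z.1 0 j + y.1 i 1 * z.1 1 j + y.1 i 2 * z.1 2 j = (1 : Matrix (Fin 3) (Fin 3) (ZMod 5)) i j := by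
    intro i j
    rw [← hyz, Matrix.mul_apply, Fin.sum_univ_three]
  have h00 : y.1 0 0 * z.1 0 0 = 1 := by
    have := h 0 0
    rw [hz1, hz2] at this
    simpa using this
  -- `y z0 y⁻¹ = 2 + 2 y E₀₀ y⁻¹`
  have e : ∀ i j, (y.1 * z0.1 * z.1) i j =
      2 * (y.1 i 0 * z.1 0 j + y.1 i 1 * z.1 1 j + y.1 i 2 * z.1 2 j) + 2 * y.1 i 0 * z.1 0 j := by
    intro i j
    simp [z0, Matrix.mul_apply, Fin.sum_univ_three]
    ring
  refine ⟨3 * y.1 0 0 * z.1 0 1, 3 * y.1 0 0 * z.1 0 2, ?_⟩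
  apply Subtype.ext
  show y.1 * z0.1 * z.1 = z0.1 * (vp _ _).1
  ext i j
  rw [e, h, Matrix.mul_apply, Fin.sum_univ_three]
  have h12 : (4 : ZMod 5) * 3 = 2 := by decide
  have h4 : (2 : ZMod 5) + 2 = 4 := by decide
  have h13 : ∀ t : ZMod 5, 2 * t = 4 * (3 * t) := fun t => by rw [← mul_assoc, h12]
  fin_cases i <;> fin_cases j <;> simp [vp, z0, hy1, hy2, mul_assoc, h00, h4, ← h13]

theorem z0_vm (a b : ZMod 5) : z0⁻¹ * vm a b * z0 = vm (2 * a) (2 * b) := by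
  have e : vm a b * z0 = z0 * vm (2 * a) (2 * b) := by
    apply Subtype.ext
    rw [mul_val, mul_val]
    ext i j
    fin_cases i <;> fin_cases j <;> simp [vm, z0, Matrix.mul_apply, Fin.sum_univ_three] <;> ring
  rw [mul_assoc, e, inv_mul_cancel_left]

theorem vm_mul (a b c d : ZMod 5) : vm a b * vm c d = vm (a + c) (b + d) := by
  apply Subtype.ext
  rw [mul_val]
  ext i j
  fin_cases i <;> fin_cases j <;> simp [vm, Matrix.mul_apply, Fin.sum_univ_three, add_comm]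

theorem vm_zero : vm 0 0 = 1 := by
  apply Subtype.ext
  ext i j
  fin_cases i <;> fin_cases j <;> rfl

theorem vm_mem_iff {a b : ZMod 5} : vm a b ∈ P0 ↔ a = 0 ∧ b = 0 := Iff.rfl

theorem io_vp (a b : ZMod 5) : io (vp a b) = vm (-a) (-b) := by
  rw [io_apply]
  have e : (vp a b)⁻¹ = vp (-a) (-b) := by
    rw [inv_eq_iff_mul_eq_one, vp_mul, add_neg_cancel, add_neg_cancel, vp_zero]
  rw [e]
  apply Subtype.ext
  ext i j
  fin_cases i <;> fin_cases j <;> rfl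

theorem io_z0 : io z0 = z0⁻¹ := by decide

section Rep

variable {V : Type*} [AddCommGroup V] [Module (ZMod 3) V] (ρ : SL35 →* Module.End (ZMod 3) V)

/-- the part of `J` at the point `q` -/
def jq (q : SL35 ⧸ P0) : Module.End (ZMod 3) V :=
  Quotient.liftOn' q (fun x => ρ x * (ρ z0 * ep ρ) * ρ x⁻¹) (by
    intro x y hxy
    have h := QuotientGroup.leftRel_apply.1 hxy
    obtain ⟨z, hz⟩ : ∃ z, z = x⁻¹ * y := ⟨_, rfl⟩
    have e : y = x * z := by rw [hz]; group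
    rw [← hz] at h
    show ρ x * (ρ z0 * ep ρ) * ρ x⁻¹ = ρ y * (ρ z0 * ep ρ) * ρ y⁻¹
    obtain ⟨a, b, hab⟩ := conj_z0 h
    have h1 : ρ z * (ρ z0 * ep ρ) * ρ z⁻¹ = ρ z0 * ep ρ := by
      have h2 : ρ z⁻¹ * ep ρ = ep ρ * ρ z⁻¹ := comm_ep ρ (P0.inv_mem h)
      rw [mul_assoc, mul_assoc (ρ z0), ← h2, ← mul_assoc (ρ z0), ← mul_assoc (ρ z), ← map_mul, ← map_mul, ← mul_assoc z, hab,
        map_mul, mul_assoc]
      congr 1
      ext v
      exact ep_mem ρ v _ ⟨a, b, rfl⟩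
    subst e
    rw [mul_inv_rev, map_mul, map_mul ρ z⁻¹]
    calc ρ x * (ρ z0 * ep ρ) * ρ x⁻¹ = ρ x * (ρ z * (ρ z0 * ep ρ) * ρ z⁻¹) * ρ x⁻¹ := by rw [h1]
      _ = _ := by simp only [mul_assoc])

theorem jq_mk (x : SL35) : jq ρ (x : SL35 ⧸ P0) = ρ x * (ρ z0 * ep ρ) * ρ x⁻¹ := rfl

theorem jq_one : jq ρ ((1 : SL35) : SL35 ⧸ P0) = ρ z0 * ep ρ := by
  rw [jq_mk, inv_one, map_one, one_mul, mul_one]

theorem jq_smul (g : SL35) (q : SL35 ⧸ P0) : ρ g * jq ρ q = jq ρ (g • q) * ρ g := by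
  obtain ⟨x, rfl⟩ := QuotientGroup.mk_surjective q
  show ρ g * (ρ x * (ρ z0 * ep ρ) * ρ x⁻¹) = (ρ (g * x) * (ρ z0 * ep ρ) * ρ (g * x)⁻¹) * ρ g
  rw [mul_inv_rev, map_mul, map_mul ρ x⁻¹]
  rw [mul_assoc _ _ (ρ g), mul_assoc (ρ x⁻¹), rho_inv_mul, mul_one]
  simp only [mul_assoc]

theorem jq_mul_eq (q : SL35 ⧸ P0) : jq ρ q * eq ρ q = jq ρ q := by
  obtain ⟨x, rfl⟩ := QuotientGroup.mk_surjective q
  rw [eq_mk, jq_mk]
  calc ρ x * (ρ z0 * ep ρ) * ρ x⁻¹ * (ρ x * ep ρ * ρ x⁻¹)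
      = ρ x * ρ z0 * ep ρ * (ρ x⁻¹ * ρ x) * ep ρ * ρ x⁻¹ := by simp only [mul_assoc]
    _ = ρ x * ρ z0 * (ep ρ * ep ρ) * ρ x⁻¹ := by rw [rho_inv_mul, mul_one]; simp only [mul_assoc]
    _ = _ := by rw [ep_mul_self]; simp only [mul_assoc]

theorem eq_mul_jq (q : SL35 ⧸ P0) : eq ρ q * jq ρ q = jq ρ q := by
  obtain ⟨x, rfl⟩ := QuotientGroup.mk_surjective q
  rw [eq_mk, jq_mk]
  have h1 : ρ z0 * ep ρ = ep ρ * ρ z0 := comm_ep ρ z0_mem
  calc ρ x * ep ρ * ρ x⁻¹ * (ρ x * (ρ z0 * ep ρ) * ρ x⁻¹)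
      = ρ x * ep ρ * (ρ x⁻¹ * ρ x) * (ρ z0 * ep ρ) * ρ x⁻¹ := by simp only [mul_assoc]
    _ = ρ x * (ep ρ * ep ρ) * ρ z0 * ρ x⁻¹ := by rw [rho_inv_mul, mul_one, h1]; simp only [mul_assoc]
    _ = ρ x * (ρ z0 * ep ρ) * ρ x⁻¹ := by rw [ep_mul_self, h1]; simp only [mul_assoc]

theorem jq_mul_self {ρ : SL35 →* Module.End (ZMod 3) V} (h : Hyp ρ) (q : SL35 ⧸ P0) : jq ρ q * jq ρ q = -eq ρ q := by
  obtain ⟨x, rfl⟩ := QuotientGroup.mk_surjective q
  rw [eq_mk, jq_mk]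
  have h1 : ρ z0 * ep ρ = ep ρ * ρ z0 := comm_ep ρ z0_mem
  have h2 : ρ z0 * (ρ z0 * ep ρ) = -ep ρ := by
    ext v
    exact h.zz _ (ep_mem ρ v)
  calc ρ x * (ρ z0 * ep ρ) * ρ x⁻¹ * (ρ x * (ρ z0 * ep ρ) * ρ x⁻¹)
      = ρ x * (ρ z0 * ep ρ) * (ρ x⁻¹ * ρ x) * (ρ z0 * ep ρ) * ρ x⁻¹ := by simp only [mul_assoc]
    _ = ρ x * (ρ z0 * (ep ρ * ρ z0) * ep ρ) * ρ x⁻¹ := by rw [rho_inv_mul, mul_one]; simp only [mul_assoc]
    _ = ρ x * ((ρ z0 * (ρ z0 * ep ρ)) * ep ρ) * ρ x⁻¹ := by rw [← h1]; 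
    _ = -(ρ x * ep ρ * ρ x⁻¹) := by
      rw [h2, neg_mul, ep_mul_self, mul_neg, neg_mul]

theorem jq_mul_of_ne {ρ : SL35 →* Module.End (ZMod 3) V} (h : ∀ v ∈ fx ρ US, v = 0) {q q' : SL35 ⧸ P0} (hq : q ≠ q') :
    jq ρ q * eq ρ q' = 0 := by
  rw [← jq_mul_eq, mul_assoc, eq_mul_of_ne h hq, mul_zero]

/-- the endomorphism `J` -/
noncomputable def jj : Module.End (ZMod 3) V := ∑ q : SL35 ⧸ P0, jq ρ q

theorem jj_comm (g : SL35) : jj ρ * ρ g = ρ g * jj ρ := by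
  rw [jj, Finset.mul_sum, Finset.sum_mul]
  refine (Fintype.sum_equiv (MulAction.toPerm g) _ _ fun q => ?_).symm
  exact jq_smul ρ g q

theorem jj_mul_jj {ρ : SL35 →* Module.End (ZMod 3) V} [FiniteDimensional (ZMod 3) V] (h : Hyp ρ) : jj ρ * jj ρ = -1 := by
  have h1 : ∀ q, jq ρ q * jj ρ = -eq ρ q := by
    intro q
    rw [jj, Finset.mul_sum, Finset.sum_eq_single q, jq_mul_self h]
    · intro q' _ hq
      rw [← eq_mul_jq ρ q', ← mul_assoc, jq_mul_of_ne h.fixS hq.symm, zero_mul]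
    · intro h; exact absurd (Finset.mem_univ _) h
  rw [← sum_eq h, ← Finset.sum_neg_distrib]
  conv_lhs => rw [jj, Finset.sum_mul]
  exact Finset.sum_congr rfl fun q _ => h1 q

theorem jj_of_mem {ρ : SL35 →* Module.End (ZMod 3) V} (h : ∀ v ∈ fx ρ US, v = 0) {v : V} (hv : v ∈ fx ρ VP) :
    jj ρ v = ρ z0 v := by
  have h1 : jj ρ * ep ρ = ρ z0 * ep ρ := by
    rw [jj, Finset.sum_mul, Finset.sum_eq_single ((1 : SL35) : SL35 ⧸ P0)]
    · rw [jq_one, mul_assoc, ep_mul_self]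
    · intro q _ hq
      rw [← eq_one, jq_mul_of_ne h hq]
    · intro h; exact absurd (Finset.mem_univ _) h
  have h2 := congrArg (fun f : Module.End (ZMod 3) V => f v) h1
  have h3 : jj ρ (ep ρ v) = ρ z0 (ep ρ v) := h2
  rwa [ep_of_mem ρ hv] at h3

theorem jj_comm_apply (g : SL35) (v : V) : jj ρ (ρ g v) = ρ g (jj ρ v) :=
  congrArg (fun f : Module.End (ZMod 3) V => f v) (jj_comm ρ g)

theorem jj_jj_apply {ρ : SL35 →* Module.End (ZMod 3) V} [FiniteDimensional (ZMod 3) V] (h : Hyp ρ) (v : V) :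
    jj ρ (jj ρ v) = -v :=
  congrArg (fun f : Module.End (ZMod 3) V => f v) (jj_mul_jj h)

/-! ### Involutions inducing the inverse transpose -/

/-- a nonzero fixed vector of `VM` on which `J` acts as `z0` -/
theorem exists_vm {ρ : SL35 →* Module.End (ZMod 3) V} (h : Hyp ρ) :
    ∃ c : V, c ≠ 0 ∧ (∀ a b, ρ (vm a b) c = c) ∧ jj ρ c = ρ z0 c := by
  obtain ⟨c0, hc0, hne⟩ : ∃ c0 ∈ fx ρ VP, c0 ≠ 0 := by
    by_contra hcon
    push Not at hcon
    have h1 : fx ρ VP = ⊥ := (Submodule.eq_bot_iff _).2 hcon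
    have h2 := h.dim
    rw [h1, finrank_bot] at h2
    exact absurd h2 (by norm_num)
  refine ⟨∑ ab : ZMod 5 × ZMod 5, ρ (vm ab.1 ab.2) c0, ?_, ?_, ?_⟩
  · intro hz
    apply hne
    have h1 : ep ρ (∑ ab : ZMod 5 × ZMod 5, ρ (vm ab.1 ab.2) c0) = c0 := by
      rw [map_sum, Finset.sum_eq_single ((0, 0) : ZMod 5 × ZMod 5)]
      · rw [vm_zero, map_one]
        exact ep_of_mem ρ hc0
      · rintro ⟨a, b⟩ _ hab
        have h2 : vm a b ∉ P0 := fun h3 => hab (Prod.ext (vm_mem_iff.1 h3).1 (vm_mem_iff.1 h3).2)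
        have h4 := congrArg (fun f : Module.End (ZMod 3) V => f c0) (ep_mul_ep h.fixS h2)
        have h5 : ep ρ (ρ (vm a b) (ep ρ c0)) = 0 := h4
        rwa [ep_of_mem ρ hc0] at h5
      · intro h; exact absurd (Finset.mem_univ _) h
    rw [← h1, hz, map_zero]
  · intro a b
    rw [map_sum]
    refine Fintype.sum_equiv (Equiv.addLeft (a, b)) _ _ fun ab => ?_
    rw [← rho_mul, vm_mul]
    rfl
  · rw [map_sum, map_sum]
    have h1 : ∀ x : SL35, jj ρ (ρ x c0) = ρ x (ρ z0 c0) := by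
      intro x
      have h2 := congrArg (fun f : Module.End (ZMod 3) V => f c0) (jj_comm ρ x)
      have h3 : jj ρ (ρ x c0) = ρ x (jj ρ c0) := h2
      rw [h3, jj_of_mem h.fixS hc0]
    let e : ZMod 5 × ZMod 5 ≃ ZMod 5 × ZMod 5 :=
      { toFun := fun ab => (2 * ab.1, 2 * ab.2)
        invFun := fun ab => (3 * ab.1, 3 * ab.2)
        left_inv := fun ab => by
          have h6 : (3 : ZMod 5) * 2 = 1 := by decide
          refine Prod.ext ?_ ?_
          · show 3 * (2 * ab.1) = ab.1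
            rw [← mul_assoc, h6, one_mul]
          · show 3 * (2 * ab.2) = ab.2
            rw [← mul_assoc, h6, one_mul]
        right_inv := fun ab => by
          have h6 : (2 : ZMod 5) * 3 = 1 := by decide
          refine Prod.ext ?_ ?_
          · show 2 * (3 * ab.1) = ab.1
            rw [← mul_assoc, h6, one_mul]
          · show 2 * (3 * ab.2) = ab.2
            rw [← mul_assoc, h6, one_mul] }
    refine Fintype.sum_equiv e _ _ fun ab => ?_
    rw [h1, ← rho_mul, ← rho_mul]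
    have h7 : vm ab.1 ab.2 * z0 = z0 * vm (2 * ab.1) (2 * ab.2) := by
      rw [← z0_vm]; group
    rw [h7]
    rfl

/-- **The graph involutions** -/
theorem finrank_graph {ρ : SL35 →* Module.End (ZMod 3) V} [FiniteDimensional (ZMod 3) V] (h : Hyp ρ)
    (T : Module.End (ZMod 3) V) (hT : T * T = 1) (hTx : ∀ x, T * ρ x = ρ (io x) * T)
    (A : Submodule (ZMod 3) V) (hA : ∀ v, v ∈ A ↔ T v = v) : finrank (ZMod 3) A = 124 := by
  have hTT : ∀ v, T (T v) = v := fun v => congrArg (fun f : Module.End (ZMod 3) V => f v) hT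
  have hT' : ∀ x v, T (ρ x v) = ρ (io x) (T v) := fun x v => congrArg (fun f : Module.End (ZMod 3) V => f v) (hTx x)
  have hJ : ∀ x v, jj ρ (ρ x v) = ρ x (jj ρ v) := fun x v =>
    congrArg (fun f : Module.End (ZMod 3) V => f v) (jj_comm ρ x)
  have hJJ : ∀ v, jj ρ (jj ρ v) = -v := fun v => congrArg (fun f : Module.End (ZMod 3) V => f v) (jj_mul_jj h)
  obtain ⟨c, hc0, hc, hcz⟩ := exists_vm h
  -- `T J T + J` is zero
  let W : Submodule (ZMod 3) V := LinearMap.ker (T * jj ρ * T + jj ρ)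
  have hW : ∀ v, v ∈ W ↔ T (jj ρ (T v)) + jj ρ v = 0 := fun v => LinearMap.mem_ker
  have hWx : ∀ x, ∀ v ∈ W, ρ x v ∈ W := by
    intro x v hv
    rw [hW] at hv ⊢
    rw [hT', hJ, hT', io_io, hJ, ← map_add, hv, map_zero]
  have hcW : c ∈ W := by
    rw [hW]
    have h1 : T c ∈ fx ρ VP := by
      rintro _ ⟨a, b, rfl⟩
      have h2 : vp a b = io (io (vp a b)) := (io_io _).symm
      rw [h2, ← hT', io_vp, hc]
    have h3 : ρ z0 (T c) = T (ρ z0⁻¹ c) := by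
      rw [hT', ← io_z0, io_io]
    rw [jj_of_mem h.fixS h1, h3, hTT, hcz]
    -- `z0² c = -c`
    have h4 : ρ z0 (ρ z0 c) = -c := by
      rw [← hJJ c, hcz, hJ, hcz]
    have h5 : ρ z0⁻¹ c = -ρ z0 c := by
      have h6 : ρ z0⁻¹ (ρ z0 (ρ z0 c)) = ρ z0 c := by
        rw [← rho_mul, inv_mul_cancel, map_one]; rfl
      rw [h4, map_neg] at h6
      rw [← h6, neg_neg]
    rw [h5, neg_add_cancel]
  have hWtop : W = ⊤ := by
    rcases irr h W hWx with h1 | h1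
    · exact absurd ((Submodule.mem_bot _).1 (h1 ▸ hcW)) hc0
    · exact h1
  have hanti : ∀ v, T (jj ρ v) = -jj ρ (T v) := by
    intro v
    have h1 : T v ∈ W := hWtop ▸ Submodule.mem_top
    rw [hW, hTT] at h1
    exact eq_neg_of_add_eq_zero_left h1
  -- the two eigenspaces
  let B : Submodule (ZMod 3) V := LinearMap.ker (T + 1)
  have hB : ∀ v, v ∈ B ↔ T v = -v := by
    intro v
    rw [LinearMap.mem_ker]
    exact eq_neg_iff_add_eq_zero.symm
  have two : ∀ v : V, v = -v → v = 0 := by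
    intro v hv
    have h1 : (3 : ℕ) • v = 0 := by
      rw [← Nat.cast_smul_eq_nsmul (ZMod 3), (by decide : ((3 : ℕ) : ZMod 3) = 0), zero_smul]
    have h2 : v + v = 0 := by
      nth_rewrite 2 [hv]
      exact add_neg_cancel v
    rw [succ_nsmul, two_nsmul, h2, zero_add] at h1
    exact h1
  have three : ∀ v : V, v + v + v = 0 := by
    intro v
    have h1 : (3 : ℕ) • v = 0 := by
      rw [← Nat.cast_smul_eq_nsmul (ZMod 3), (by decide : ((3 : ℕ) : ZMod 3) = 0), zero_smul]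
    rw [succ_nsmul, two_nsmul] at h1
    exact h1
  have hcompl : IsCompl A B := by
    constructor
    · rw [Submodule.disjoint_def]
      intro v h1 h2
      rw [hA] at h1
      rw [hB, h1] at h2
      exact two v h2
    · rw [codisjoint_iff, eq_top_iff]
      intro v _
      refine Submodule.mem_sup.2 ⟨-(v + T v), ?_, -(v - T v), ?_, ?_⟩
      · rw [hA, map_neg, map_add, hTT, add_comm]
      · rw [hB, map_neg, map_sub, hTT]
        abel
      · have h1 := three v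
        have h2 : -(v + T v) + -(v - T v) = v - (v + v + v) := by abel
        rw [h2, h1, sub_zero]
  have hle1 : finrank (ZMod 3) A ≤ finrank (ZMod 3) B := by
    let φ : A →ₗ[ZMod 3] B := (jj ρ ∘ₗ A.subtype).codRestrict B fun v => by
      rw [hB]
      show T (jj ρ v) = -jj ρ v
      rw [hanti, (hA v).1 v.2]
    refine LinearMap.finrank_le_finrank_of_injective (f := φ) fun v w hvw => ?_
    have h1 : jj ρ (v : V) = jj ρ (w : V) := congrArg Subtype.val hvw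
    have h2 := congrArg (jj ρ) h1
    rw [hJJ, hJJ] at h2
    exact Subtype.ext (neg_injective h2)
  have hle2 : finrank (ZMod 3) B ≤ finrank (ZMod 3) A := by
    let φ : B →ₗ[ZMod 3] A := (jj ρ ∘ₗ B.subtype).codRestrict A fun v => by
      rw [hA]
      show T (jj ρ v) = jj ρ v
      rw [hanti, (hB v).1 v.2, map_neg, neg_neg]
    refine LinearMap.finrank_le_finrank_of_injective (f := φ) fun v w hvw => ?_
    have h1 : jj ρ (v : V) = jj ρ (w : V) := congrArg Subtype.val hvw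
    have h2 := congrArg (jj ρ) h1
    rw [hJJ, hJJ] at h2
    exact Subtype.ext (neg_injective h2)
  have hsum := Submodule.finrank_add_eq_of_isCompl hcompl
  have hdim := h.dimV
  have e1 : finrank (ZMod 3) A = finrank (ZMod 3) B := le_antisymm hle1 hle2
  rw [← e1] at hsum
  clear hle1 hle2 e1
  rw [hdim] at hsum
  generalize finrank (ZMod 3) A = a at hsum ⊢
  clear * - hsum
  omega

end Rep

/-- E2 -/
theorem exists_J {f : SL35 →* G3} (h : Good f) :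
    ∃ J : (Cfsg.Lie.chevE8.Idx → ZMod 3) →ₗ[ZMod 3] (Cfsg.Lie.chevE8.Idx → ZMod 3),
    (∀ x v, J (ac (f x) v) = ac (f x) (J v)) ∧ (∀ v, J (J v) = -v) ∧ ∀ v ∈ Fx (f '' VP), J v = ac (f z0) v := by
  refine ⟨jj (rp f), fun x v => ?_, fun v => ?_, fun v hv => ?_⟩
  · exact jj_comm_apply (rp f) x v
  · exact jj_jj_apply (hyp_rp h) v
  · exact jj_of_mem (hyp_rp h).fixS (by rw [fx_rp]; exact hv)

/-- E3 -/
theorem dim_graph {f : SL35 →* G3} (h : Good f) {τ : G3} (h2 : τ * τ = 1) (hτ : ∀ x, τ * f x * τ⁻¹ = f (io x)) :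
    Module.finrank (ZMod 3) (Fx {τ}) = 124 := by
  refine finrank_graph (hyp_rp h) (ac τ) ?_ (fun x => ?_) _ (fun v => ?_)
  · apply LinearMap.ext
    intro v
    show ac τ (ac τ v) = v
    rw [← ac_mul, h2, ac_one]
  · apply LinearMap.ext
    intro v
    show ac τ (ac (f x) v) = ac (f (io x)) (ac τ v)
    rw [← ac_mul, ← ac_mul, ← hτ, inv_mul_cancel_right]
  · rw [mem_Fx]
    exact ⟨fun h => h τ rfl, fun h g hg => by rw [Set.mem_singleton_iff.1 hg]; exact h⟩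

end Cfsg.Agent.H947.L5
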