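import Cfsg.Agent.H602.L5.Idem
import Cfsg.Agent.H513.L5.ThB

/-!
# S5924, uniqueness, steps 1 and 2 (helper947)

`step2` : two embeddings of `SL₃(5)` agree on the upper triangular elements up to conjugation.
-/

set_option autoImplicit false
set_option linter.unusedSectionVars false

namespace Cfsg.Agent.H947.L5

open Cfsg.Agent.H865.L5 Cfsg.Agent.H602.L5

/-- the upper triangular elements -/
def BB : Set SL35 := {x | x.1 1 0 = 0 ∧ x.1 2 0 = 0 ∧ x.1 2 1 = 0}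

/-- the stabilizer of `p₀` -/
def PB : Set SL35 := {x | x.1 1 0 = 0 ∧ x.1 2 0 = 0}

/-! ### Elements -/

/-- diagonal elements -/
def dd (p s w : ZMod 5) (h : p * s * w = 1) : SL35 :=
  ⟨!![p, 0, 0; 0, s, 0; 0, 0, w], by rw [Matrix.det_fin_three]; simpa using h⟩

theorem dd_mem {p s w : ZMod 5} (h : p * s * w = 1) : dd p s w h ∈ P0 := ⟨rfl, rfl⟩

theorem dd_z0 {p s w : ZMod 5} (h : p * s * w = 1) : dd p s w h * z0 = z0 * dd p s w h := by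
  apply H513.L5.ThB.ext3
  intro i j
  show (!![p, 0, 0; 0, s, 0; 0, 0, w] * !![4, 0, 0; 0, 2, 0; 0, 0, 2] : Matrix (Fin 3) (Fin 3) (ZMod 5)) i j =
    (!![4, 0, 0; 0, 2, 0; 0, 0, 2] * !![p, 0, 0; 0, s, 0; 0, 0, w] : Matrix (Fin 3) (Fin 3) (ZMod 5)) i j
  fin_cases i <;> fin_cases j <;> simp [Matrix.mul_apply, Fin.sum_univ_three, mul_comm]

theorem dd_us {p s w : ZMod 5} (h : p * s * w = 1) :
    dd p s w h * us 0 0 1 = us 0 0 (s * w⁻¹) * dd p s w h := by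
  have hw : w ≠ 0 := by rintro rfl; simp at h
  apply H513.L5.ThB.ext3
  intro i j
  show (!![p, 0, 0; 0, s, 0; 0, 0, w] * !![1, 0, 0; 0, 1, 1; 0, 0, 1] : Matrix (Fin 3) (Fin 3) (ZMod 5)) i j =
    (!![1, 0, 0; 0, 1, s * w⁻¹; 0, 0, 1] * !![p, 0, 0; 0, s, 0; 0, 0, w] : Matrix (Fin 3) (Fin 3) (ZMod 5)) i j
  fin_cases i <;> fin_cases j <;> simp [Matrix.mul_apply, Fin.sum_univ_three, hw]

theorem us_mem : us 0 0 1 ∈ P0 := ⟨rfl, rfl⟩

theorem us_z0 : us 0 0 1 * z0 = z0 * us 0 0 1 := by decide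

theorem us_pow (c : ZMod 5) (n : ℕ) : us 0 0 c ^ n = us 0 0 (n * c) := by
  induction n with
  | zero => rw [pow_zero, Nat.cast_zero, zero_mul, H513.L5.ThB.us_one]
  | succ n ih =>
    rw [pow_succ, ih, us_mul_us]
    congr 1
    push_cast
    ring

/-- an upper triangular element is the product of a diagonal and a unitriangular element -/
theorem exists_dd {x : SL35} (hx : x ∈ BB) : ∃ p s w, ∃ h : p * s * w = 1, ∃ a b c, x = dd p s w h * us 0 0 c * vp a b := by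
  obtain ⟨h10, h20, h21⟩ := hx
  have hd := x.2
  rw [Matrix.det_fin_three, h10, h20, h21] at hd
  have hd' : x.1 0 0 * x.1 1 1 * x.1 2 2 = 1 := by linear_combination hd
  have h0 : x.1 0 0 ≠ 0 := by intro h; rw [h] at hd'; simp at hd'
  have h1 : x.1 1 1 ≠ 0 := by intro h; rw [h] at hd'; simp at hd'
  refine ⟨x.1 0 0, x.1 1 1, x.1 2 2, hd', (x.1 0 0)⁻¹ * x.1 0 1, (x.1 0 0)⁻¹ * x.1 0 2, (x.1 1 1)⁻¹ * x.1 1 2, ?_⟩
  apply H513.L5.ThB.ext3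
  intro i j
  rw [mul_assoc, ← us_eq]
  show x.1 i j = (!![x.1 0 0, 0, 0; 0, x.1 1 1, 0; 0, 0, x.1 2 2] *
    !![1, (x.1 0 0)⁻¹ * x.1 0 1, (x.1 0 0)⁻¹ * x.1 0 2; 0, 1, (x.1 1 1)⁻¹ * x.1 1 2; 0, 0, 1] :
      Matrix (Fin 3) (Fin 3) (ZMod 5)) i j
  fin_cases i <;> fin_cases j <;> simp [Matrix.mul_apply, Fin.sum_univ_three, h10, h20, h21, h0, h1]

section Gp

variable {Γ : Type*} [Group Γ]

/-- the centralizer of `f VP` -/
def Cen (f : SL35 →* Γ) : Subgroup Γ := Subgroup.centralizer (f '' VP)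

theorem mem_Cen {f : SL35 →* Γ} {a : Γ} : a ∈ Cen f ↔ ∀ s ∈ VP, a * f s = f s * a := by
  rw [Cen, Subgroup.mem_centralizer_iff]
  constructor
  · intro h s hs
    exact (h _ ⟨s, hs, rfl⟩).symm
  · rintro h _ ⟨s, hs, rfl⟩
    exact (h s hs).symm

theorem inv_conj {x s : SL35} (hx : x ∈ P0) (hs : s ∈ VP) : x⁻¹ * s * x ∈ VP := by
  obtain ⟨a, b, rfl⟩ := hs
  obtain ⟨a', b', h⟩ := conj_vp (P0.inv_mem hx) a b
  rw [inv_inv] at h
  exact ⟨a', b', h⟩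

theorem conj_mem {f : SL35 →* Γ} {x : SL35} (hx : x ∈ P0) {a : Γ} (ha : a ∈ Cen f) : f x * a * (f x)⁻¹ ∈ Cen f := by
  rw [mem_Cen] at ha ⊢
  intro s hs
  have h1 := ha _ (inv_conj hx hs)
  rw [map_mul, map_mul, map_inv] at h1
  calc f x * a * (f x)⁻¹ * f s = f x * (a * ((f x)⁻¹ * f s * f x)) * (f x)⁻¹ := by group
    _ = f x * ((f x)⁻¹ * f s * f x * a) * (f x)⁻¹ := by rw [h1]
    _ = _ := by group

theorem diff_mem {f f₁ : SL35 →* Γ} (h : ∀ s ∈ VP, f₁ s = f s) {x : SL35} (hx : x ∈ P0) : f₁ x * (f x)⁻¹ ∈ Cen f := by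
  rw [mem_Cen]
  intro s hs
  have h1 := h _ (inv_conj hx hs)
  rw [map_mul, map_mul, map_inv, map_mul, map_mul, map_inv, h s hs] at h1
  -- `f₁ x⁻¹ f s f₁ x = f x⁻¹ f s f x`
  calc f₁ x * (f x)⁻¹ * f s = f₁ x * ((f x)⁻¹ * f s * f x) * (f x)⁻¹ := by group
    _ = f₁ x * ((f₁ x)⁻¹ * f s * f₁ x) * (f x)⁻¹ := by rw [h1]
    _ = _ := by group

variable {f : SL35 →* Γ} (hc : ∀ a ∈ Cen f, a ^ 10 = 1 ∧ f z0 * a * (f z0)⁻¹ = a ^ 7)
  (hab : ∀ a ∈ Cen f, ∀ b ∈ Cen f, a * b = b * a)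

include hc hab in
/-- the cocycle on the centralizer of `z0` -/
theorem sq_one {f₁ : SL35 →* Γ} (h : ∀ s ∈ VP, f₁ s = f s) (hb : (f₁ z0 * (f z0)⁻¹) ^ 2 = 1) {x : SL35} (hx : x ∈ P0)
    (hz : x * z0 = z0 * x) :
    (f₁ x * (f x)⁻¹) ^ 2 = 1 ∧ f x * (f₁ z0 * (f z0)⁻¹) * (f x)⁻¹ = f₁ z0 * (f z0)⁻¹ := by
  have hz0 : z0 ∈ P0 := ⟨rfl, rfl⟩
  have ha := diff_mem h hx
  have hbm := diff_mem h hz0
  set a := f₁ x * (f x)⁻¹ with hadef
  set b := f₁ z0 * (f z0)⁻¹ with hbdef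
  have e1 : f₁ x = a * f x := by rw [hadef]; group
  have e2 : f₁ z0 = b * f z0 := by rw [hbdef]; group
  have hzz : f x * f z0 = f z0 * f x := by rw [← map_mul, hz, map_mul]
  have h1 : f₁ x * f₁ z0 = f₁ z0 * f₁ x := by rw [← map_mul, hz, map_mul]
  rw [e1, e2] at h1
  obtain ⟨ha10, ha7⟩ := hc a ha
  have hcm := conj_mem (f := f) hx hbm
  set c := f x * b * (f x)⁻¹ with hcdef
  have h2 : a * c = b * a ^ 7 := by
    rw [← ha7]
    have h3 : a * c * (f x * f z0) = b * (f z0 * a * (f z0)⁻¹) * (f z0 * f x) := by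
      calc a * c * (f x * f z0) = a * f x * (b * f z0) := by rw [hcdef]; group
        _ = b * f z0 * (a * f x) := h1
        _ = _ := by group
    rw [← hzz] at h3
    exact mul_right_cancel h3
  have h4 : c = b * a ^ 6 := by
    have h5 : a * c = a * (b * a ^ 6) := by
      rw [h2, ← mul_assoc a b, hab a ha b hbm, mul_assoc b a, ← pow_succ']
    exact mul_left_cancel h5
  have hc2 : c ^ 2 = 1 := by
    have : c ^ 2 = f x * b ^ 2 * (f x)⁻¹ := by rw [hcdef, pow_two, pow_two]; group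
    rw [this, hb, mul_one, mul_inv_cancel]
  have hcomm : Commute b (a ^ 6) := hab b hbm _ (pow_mem ha 6)
  have h12 : a ^ 12 = 1 := by
    rw [h4, hcomm.mul_pow, hb, one_mul, ← pow_mul] at hc2
    exact hc2
  have ha2 : a ^ 2 = 1 := by
    have : a ^ 12 = a ^ 10 * a ^ 2 := by rw [← pow_add]
    rw [this, ha10, one_mul] at h12
    exact h12
  refine ⟨ha2, ?_⟩
  rw [h4]
  have : a ^ 6 = (a ^ 2) ^ 3 := by rw [← pow_mul]
  rw [this, ha2, one_pow, mul_one]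

/-- conjugation of a homomorphism -/
def cj (g : Γ) (f : SL35 →* Γ) : SL35 →* Γ := (MulAut.conj g).toMonoidHom.comp f

theorem cj_apply (g : Γ) (f : SL35 →* Γ) (x : SL35) : cj g f x = g * f x * g⁻¹ := rfl

include hc hab in
/-- the case `f₁ = f` on `VP` -/
theorem core (h16 : Nat.card {a : Γ // a ∈ Cen f ∧ a ^ 2 = 1} = 16)
    (hu : ∀ a ∈ Cen f, a * f (us 0 0 1) = f (us 0 0 1) * a → a ^ 2 = 1 → a = 1)
    {f₁ : SL35 →* Γ} (h : ∀ s ∈ VP, f₁ s = f s) : ∃ g, ∀ x ∈ BB, f₁ x = g * f x * g⁻¹ := by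
  have hz0 : z0 ∈ P0 := ⟨rfl, rfl⟩
  have hcj : ∀ {a : Γ} {f₂ : SL35 →* Γ}, a ∈ Cen f → (∀ s ∈ VP, f₂ s = f s) → ∀ s ∈ VP, cj a f₂ s = f s := by
    intro a f₂ ha h s hs
    rw [cj_apply, h s hs, mem_Cen.1 ha s hs, mul_inv_cancel_right]
  -- first conjugation
  have ham := diff_mem h hz0
  obtain ⟨α, hα⟩ : ∃ α, α = f₁ z0 * (f z0)⁻¹ := ⟨_, rfl⟩
  rw [← hα] at ham
  have hf1z : f₁ z0 = α * f z0 := by rw [hα]; group
  obtain ⟨h10, h7⟩ := hc α ham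
  have h2v := hcj ham h
  set f₂ := cj α f₁ with hf2
  have hb : f₂ z0 * (f z0)⁻¹ = (α ^ 5)⁻¹ := by
    have h1 : f z0 * α⁻¹ * (f z0)⁻¹ = (α ^ 7)⁻¹ := by
      rw [← h7]; group
    calc f₂ z0 * (f z0)⁻¹ = α * (α * f z0) * α⁻¹ * (f z0)⁻¹ := by rw [hf2, cj_apply, hf1z]
      _ = α * α * (f z0 * α⁻¹ * (f z0)⁻¹) := by group
      _ = (α ^ 5)⁻¹ := by rw [h1]; group
  have hb2 : (f₂ z0 * (f z0)⁻¹) ^ 2 = 1 := by
    rw [hb, inv_pow, ← pow_mul, h10, inv_one]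
  have hb1 : f₂ z0 * (f z0)⁻¹ = 1 := by
    refine hu _ (diff_mem h2v hz0) ?_ hb2
    have h1 := (sq_one hc hab h2v hb2 us_mem us_z0).2
    exact (mul_inv_eq_iff_eq_mul.1 h1).symm
  -- second conjugation
  have hau : (f₂ (us 0 0 1) * (f (us 0 0 1))⁻¹) ^ 2 = 1 := (sq_one hc hab h2v hb2 us_mem us_z0).1
  have haum := diff_mem h2v us_mem
  have : Finite {a : Γ // a ∈ Cen f ∧ a ^ 2 = 1} := Nat.finite_of_card_ne_zero (by rw [h16]; norm_num)
  let φ : {a : Γ // a ∈ Cen f ∧ a ^ 2 = 1} → {a : Γ // a ∈ Cen f ∧ a ^ 2 = 1} := fun b =>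
    ⟨b.1 * (f (us 0 0 1) * b.1 * (f (us 0 0 1))⁻¹)⁻¹, by
      have h1 := conj_mem (f := f) us_mem b.2.1
      refine ⟨mul_mem b.2.1 (inv_mem h1), ?_⟩
      have hcm : Commute b.1 ((f (us 0 0 1) * b.1 * (f (us 0 0 1))⁻¹)⁻¹) := hab _ b.2.1 _ (inv_mem h1)
      rw [hcm.mul_pow, b.2.2, one_mul, inv_pow]
      have h2 : (f (us 0 0 1) * b.1 * (f (us 0 0 1))⁻¹) ^ 2 = f (us 0 0 1) * b.1 ^ 2 * (f (us 0 0 1))⁻¹ := by
        rw [pow_two, pow_two]; group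
      rw [h2, b.2.2, mul_one, mul_inv_cancel, inv_one]⟩
  have hφ : Function.Injective φ := by
    intro b b' hbb
    have h1 : b.1 * (f (us 0 0 1) * b.1 * (f (us 0 0 1))⁻¹)⁻¹ = b'.1 * (f (us 0 0 1) * b'.1 * (f (us 0 0 1))⁻¹)⁻¹ :=
      congrArg Subtype.val hbb
    have h2 := conj_mem (f := f) us_mem b.2.1
    have h3 := conj_mem (f := f) us_mem b'.2.1
    have h4 : b'.1⁻¹ * b.1 = 1 := by
      have hm : b'.1⁻¹ * b.1 ∈ Cen f := mul_mem (inv_mem b'.2.1) b.2.1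
      refine hu _ hm ?_ ?_
      · have h5 : b'.1⁻¹ * b.1 = (f (us 0 0 1) * b'.1 * (f (us 0 0 1))⁻¹)⁻¹ * (f (us 0 0 1) * b.1 * (f (us 0 0 1))⁻¹) := by
          rw [inv_mul_eq_iff_eq_mul, ← mul_assoc, ← h1, inv_mul_cancel_right]
        nth_rewrite 1 [h5]
        group
      · have hcm : Commute b'.1⁻¹ b.1 := hab _ (inv_mem b'.2.1) _ b.2.1
        rw [hcm.mul_pow, b.2.2, inv_pow, b'.2.2, inv_one, one_mul]
    exact Subtype.ext (inv_mul_eq_one.1 h4).symm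
  obtain ⟨⟨b, hbm, hbsq⟩, hbe⟩ := (Finite.injective_iff_surjective.1 hφ) ⟨_, haum, hau⟩
  have hbe' : b * (f (us 0 0 1) * b * (f (us 0 0 1))⁻¹)⁻¹ = f₂ (us 0 0 1) * (f (us 0 0 1))⁻¹ := congrArg Subtype.val hbe
  have h3v := hcj hbm h2v
  set f₃ := cj b f₂ with hf3
  have hf2z : f₂ z0 = f z0 := mul_inv_eq_one.1 hb1
  have hf3z : f₃ z0 = f z0 := by
    have h1 := (hc b hbm).2
    have h2 : b ^ 7 = b := by
      have : b ^ 7 = (b ^ 2) ^ 3 * b := by rw [← pow_mul, ← pow_succ]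
      rw [this, hbsq, one_pow, one_mul]
    rw [h2, mul_inv_eq_iff_eq_mul] at h1
    rw [hf3, cj_apply, hf2z, ← h1, mul_inv_cancel_right]
  have hf3u : f₃ (us 0 0 1) = f (us 0 0 1) := by
    rw [hf3, cj_apply]
    have h1 : f₂ (us 0 0 1) = b * (f (us 0 0 1) * b * (f (us 0 0 1))⁻¹)⁻¹ * f (us 0 0 1) := by
      rw [hbe']; group
    rw [h1]
    have h2 : b * b = 1 := by rw [← pow_two]; exact hbsq
    calc b * (b * (f (us 0 0 1) * b * (f (us 0 0 1))⁻¹)⁻¹ * f (us 0 0 1)) * b⁻¹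
        = (b * b) * (f (us 0 0 1) * (b * b)⁻¹) := by group
      _ = _ := by rw [h2]; group
  have hone : (f₃ z0 * (f z0)⁻¹) ^ 2 = 1 := by rw [hf3z, mul_inv_cancel, one_pow]
  -- the diagonal elements
  have hf3d : ∀ {p s w : ZMod 5} (hh : p * s * w = 1), f₃ (dd p s w hh) = f (dd p s w hh) := by
    intro p s w hh
    have hm := diff_mem h3v (dd_mem hh)
    have h1 := (sq_one hc hab h3v hone (dd_mem hh) (dd_z0 hh)).1
    have hs : s ≠ 0 := by rintro rfl; simp at hh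
    have hw : w ≠ 0 := by rintro rfl; simp at hh
    have hsw : s * w⁻¹ ≠ 0 := mul_ne_zero hs (inv_ne_zero hw)
    obtain ⟨c, hcdef⟩ : ∃ c, c = s * w⁻¹ := ⟨_, rfl⟩
    have hus : ∀ c : ZMod 5, us 0 0 c = us 0 0 1 ^ c.val := by
      intro c
      rw [us_pow, mul_one, ZMod.natCast_val, ZMod.cast_id]
    have hf3c : ∀ c : ZMod 5, f₃ (us 0 0 c) = f (us 0 0 c) := by
      intro c
      rw [hus, map_pow, map_pow, hf3u]
    set a := f₃ (dd p s w hh) * (f (dd p s w hh))⁻¹ with ha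
    have e1 : f₃ (dd p s w hh) = a * f (dd p s w hh) := by rw [ha]; group
    have h2 := congrArg f₃ (dd_us hh)
    rw [map_mul, map_mul, hf3u, hf3c, ← hcdef, e1] at h2
    have h3 := congrArg f (dd_us hh)
    rw [map_mul, map_mul, ← hcdef] at h3
    have h4 : Commute a (f (us 0 0 c)) := by
      rw [mul_assoc, h3, ← mul_assoc, ← mul_assoc] at h2
      exact mul_right_cancel h2
    have h5 : Commute a (f (us 0 0 1)) := by
      have h6 := h4.pow_right (c⁻¹).val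
      rw [← map_pow, us_pow, ZMod.natCast_val, ZMod.cast_id, inv_mul_cancel₀ (hcdef ▸ hsw)] at h6
      exact h6
    have h7 := hu a hm h5 h1
    rw [e1, h7, one_mul]
  have hus : ∀ c : ZMod 5, f₃ (us 0 0 c) = f (us 0 0 c) := by
    intro c
    have h1 : us 0 0 c = us 0 0 1 ^ c.val := by
      rw [us_pow, mul_one, ZMod.natCast_val, ZMod.cast_id]
    rw [h1, map_pow, map_pow, hf3u]
  refine ⟨(b * α)⁻¹, fun x hx => ?_⟩
  obtain ⟨p, s, w, hh, a, b', c, rfl⟩ := exists_dd hx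
  have h1 : f₃ (dd p s w hh * us 0 0 c * vp a b') = f (dd p s w hh * us 0 0 c * vp a b') := by
    rw [map_mul, map_mul, map_mul, map_mul, hf3d, hus, h3v _ ⟨a, b', rfl⟩]
  rw [← h1, hf3, cj_apply, hf2, cj_apply]
  group

end Gp

/-- **Steps 1 and 2** -/
theorem step2 {Γ : Type*} [Group Γ]
    (hc : ∀ f : SL35 →* Γ, Function.Injective f → ∀ a, (∀ s ∈ VP, a * f s = f s * a) →
      a ^ 10 = 1 ∧ f z0 * a * (f z0)⁻¹ = a ^ 7)
    (hab : ∀ f : SL35 →* Γ, Function.Injective f → ∀ a b, (∀ s ∈ VP, a * f s = f s * a) →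
      (∀ s ∈ VP, b * f s = f s * b) → a * b = b * a)
    (h16 : ∀ f : SL35 →* Γ, Function.Injective f →
      Nat.card {a : Γ // (∀ s ∈ VP, a * f s = f s * a) ∧ a ^ 2 = 1} = 16)
    (hu : ∀ f : SL35 →* Γ, Function.Injective f → ∀ a, (∀ s ∈ VP, a * f s = f s * a) →
      a * f (us 0 0 1) = f (us 0 0 1) * a → a ^ 2 = 1 → a = 1)
    (hV : ∀ f f' : SL35 →* Γ, Function.Injective f → Function.Injective f' →
      ∃ g, ∀ s ∈ VP, ∃ s' ∈ VP, f' s = g * f s' * g⁻¹)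
    (f f' : SL35 →* Γ) (hf : Function.Injective f) (hf' : Function.Injective f') :
    ∃ g, ∀ x ∈ BB, f' x = g * f x * g⁻¹ := by
  obtain ⟨g₀, hg₀⟩ := hV f f' hf hf'
  obtain ⟨_, ⟨a, b, rfl⟩, h1⟩ := hg₀ (vp 1 0) ⟨1, 0, rfl⟩
  obtain ⟨_, ⟨c, d, rfl⟩, h2⟩ := hg₀ (vp 0 1) ⟨0, 1, rfl⟩
  have hpow : ∀ (s t : ZMod 5) (n : ℕ), vp s t ^ n = vp (n * s) (n * t) := by
    intro s t n
    induction n with
    | zero => rw [pow_zero, Nat.cast_zero, zero_mul, zero_mul, vp_zero]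
    | succ n ih =>
      rw [pow_succ, ih, vp_mul]
      congr 1 <;> push_cast <;> ring
  have hval : ∀ s t : ZMod 5, vp s t = vp 1 0 ^ s.val * vp 0 1 ^ t.val := by
    intro s t
    rw [hpow, hpow, vp_mul]
    simp [ZMod.natCast_val, ZMod.cast_id]
  have key : ∀ s t : ZMod 5, f' (vp s t) = g₀ * f (vp (s * a + t * c) (s * b + t * d)) * g₀⁻¹ := by
    intro s t
    have e1 : f' (vp 1 0 ^ s.val) = g₀ * f (vp (s * a) (s * b)) * g₀⁻¹ := by
      rw [map_pow, h1, conj_pow, ← map_pow, hpow, ZMod.natCast_val, ZMod.cast_id]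
    have e2 : f' (vp 0 1 ^ t.val) = g₀ * f (vp (t * c) (t * d)) * g₀⁻¹ := by
      rw [map_pow, h2, conj_pow, ← map_pow, hpow, ZMod.natCast_val, ZMod.cast_id]
    rw [hval s t, map_mul, e1, e2, ← vp_mul (s * a) (s * b), map_mul]
    group
  have vp_inj : ∀ {s t : ZMod 5}, vp s t = 1 → s = 0 ∧ t = 0 := by
    intro s t h
    rw [← vp_zero] at h
    exact ⟨congrFun (congrFun (congrArg Subtype.val h) 0) 1, congrFun (congrFun (congrArg Subtype.val h) 0) 2⟩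
  have hker : ∀ {s t : ZMod 5}, s * a + t * c = 0 → s * b + t * d = 0 → s = 0 ∧ t = 0 := by
    intro s t e1 e2
    apply vp_inj
    apply hf'
    rw [key, e1, e2, vp_zero, map_one, mul_one, mul_inv_cancel, map_one]
  have hdet : a * d - b * c ≠ 0 := by
    intro h0
    obtain ⟨e1, e2⟩ := hker (s := c) (t := -a) (by ring) (by linear_combination -h0)
    obtain ⟨e3, e4⟩ := hker (s := d) (t := -b) (by linear_combination h0) (by ring)
    have e5 := (hker (s := 1) (t := 0) (by rw [neg_eq_zero.1 e2]; ring) (by rw [neg_eq_zero.1 e4]; ring)).1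
    exact one_ne_zero e5
  let m := H513.L5.ThB.pm a b c d hdet
  have hm : ∀ s t : ZMod 5, vp (s * a + t * c) (s * b + t * d) = m * vp s t * m⁻¹ := by
    intro s t
    rw [eq_mul_inv_iff_mul_eq]
    exact (H513.L5.ThB.pm_mul a b c d hdet s t).symm
  let f₁ := cj (g₀ * f m)⁻¹ f'
  have hf1 : ∀ s ∈ VP, f₁ s = f s := by
    rintro _ ⟨s, t, rfl⟩
    show (g₀ * f m)⁻¹ * f' (vp s t) * (g₀ * f m)⁻¹⁻¹ = _
    rw [key, hm, map_mul, map_mul, map_inv]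
    group
  obtain ⟨g, hg⟩ := core (f := f) (fun a ha => hc f hf a (mem_Cen.1 ha))
    (fun a ha b hb => hab f hf a b (mem_Cen.1 ha) (mem_Cen.1 hb))
    (by
      rw [← h16 f hf]
      exact Nat.card_congr (Equiv.subtypeEquivRight fun a => by rw [mem_Cen]))
    (fun a ha => hu f hf a (mem_Cen.1 ha)) hf1
  refine ⟨g₀ * f m * g, fun x hx => ?_⟩
  have h3 := hg x hx
  have h4 : (g₀ * f m)⁻¹ * f' x * (g₀ * f m)⁻¹⁻¹ = g * f x * g⁻¹ := h3
  have h5 : f' x = (g₀ * f m) * ((g₀ * f m)⁻¹ * f' x * (g₀ * f m)⁻¹⁻¹) * (g₀ * f m)⁻¹ := by group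
  rw [h5, h4]
  group

end Cfsg.Agent.H947.L5
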